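import Cfsg.Agent.H574.IFO.Kills
import Cfsg.Agent.ClassicalGeometry.HermOrthonormal

/-!
# S5719, `PSU_n(q)`, `|A|` odd: invariant subspaces, decompositions (helper574)
-/

set_option autoImplicit false
set_option linter.unusedSectionVars false

universe u v

namespace Cfsg.Agent.H574.IFO

open Matrix Subgroup Cfsg.Agent.H198.FC Cfsg.Agent.LieClassical.HermBasic Cfsg.Agent.LieClassical.HermSiegel
  Cfsg.Agent.ClassicalGeometry.PSUAutCount Cfsg.Agent.Schreier.PSU Cfsg.Agent.H602.FC Cfsg.Agent.H209.Fxy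
open Cfsg.Agent.ClassicalGeometry.UnitAutBasic (pr pr_surjective exists_ne_zero_orth)

section op

variable {K : Type u} [Field K] {V : Type v} [AddCommGroup V] [Module K V] (b : Cl K V)

/-- `v ↦ B(v, x) y` -/
def op (x y : V) : R K V where
  toFun v := b.B v x • y
  map_add' v w := by rw [b.add_left, add_smul]
  map_smul' a v := by rw [b.smul_left, mul_smul, RingHom.id_apply]

theorem op_apply (x y v : V) : op b x y v = b.B v x • y := rfl

variable {b}

theorem adj_op (hU : b.IsU) (x y : V) : b.Adj (op b x y) (op b y x) := by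
  intro v w
  rw [op_apply, op_apply, b.smul_left, b.smul_right, ← hU.2]
  ring

theorem op_mul (x y z t : V) : op b x y * op b z t = b.B t x • op b z y := by
  ext v
  rw [Module.End.mul_apply, op_apply, op_apply, LinearMap.smul_apply, op_apply, b.smul_left, smul_smul, mul_comm]

theorem op_ne_zero (hU : b.IsU) {x y : V} (hx : x ≠ 0) (hy : y ≠ 0) : op b x y ≠ 0 := by
  intro h
  apply hx
  apply b.nondeg
  intro w
  have h1 := LinearMap.congr_fun h w
  rw [op_apply, LinearMap.zero_apply, smul_eq_zero] at h1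
  rcases h1 with h1 | h1
  · rw [hU.2, h1, map_zero]
  · exact absurd h1 hy

/-- the swap of two orthonormal vectors -/
theorem op_pi {x y : V} (hx : b.B x x = 1) (hy : b.B y y = 1) (hxy : b.B y x = 0) :
    op b x y * op b x y = 0 ∧ op b x y * op b y x * op b x y = op b x y := by
  constructor
  · rw [op_mul, hxy, zero_smul]
  · rw [op_mul, hx, one_smul, op_mul, hy, one_smul]

theorem ne_zero_of_one {x : V} (hx : b.B x x = 1) : x ≠ 0 := by
  rintro rfl
  rw [H886.FC.B_zero_left] at hx
  exact zero_ne_one hx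

/-- an orthonormal pair in a non-degenerate subspace -/
theorem exists_pair [Finite K] [Module.Finite K V] (hU : b.IsU) {W : Submodule K V} (hND : b.ND W)
    (h2 : 2 ≤ Module.finrank K W) : ∃ x ∈ W, ∃ y ∈ W, b.B x x = 1 ∧ b.B y y = 1 ∧ b.B y x = 0 := by
  let S : W →ₛₗ[(b.τ : K →+* K)] W →ₗ[K] K :=
    LinearMap.mk₂'ₛₗ (b.τ : K →+* K) (RingHom.id K) (fun v w => b.B w v)
      (fun v v' w => b.add_right _ _ _) (fun a v w => b.smul_right a _ _)
      (fun v w w' => b.add_left _ _ _) (fun a v w => b.smul_left a _ _)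
  have hS : ∀ v w : W, S v w = b.B w v := fun v w => rfl
  obtain ⟨v, hv⟩ := Cfsg.Agent.ClassicalGeometry.HermOrthonormal.exists_orthonormal_family (σ := (b.τ : K →+* K)) (by
    intro h
    obtain ⟨a, ha⟩ := hU.1
    exact ha (DFunLike.congr_fun h a)) (fun a => b.invol a) S (by
      constructor
      intro x y
      rw [hS, hS]
      exact (hU.2 _ _).symm) (by
      intro x hx
      apply Subtype.ext
      apply hND x x.2
      intro w hw
      have h1 := hx ⟨w, hw⟩
      rw [hS] at h1
      rw [hU.2, h1, map_zero]) 2 h2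
  refine ⟨v 0, (v 0).2, v 1, (v 1).2, ?_, ?_, ?_⟩
  · have := hv 0 0
    rwa [if_pos rfl] at this
  · have := hv 1 1
    rwa [if_pos rfl] at this
  · have := hv 0 1
    rwa [if_neg (by decide)] at this

end op

variable {n : ℕ} {F : Type} [Field F] {q : ℕ} [Fintype F] (hF : Fintype.card F = q ^ 2)
  {A : Subgroup (Cfsg.PSU n F q)} {Γ : Subgroup (MulAut (Cfsg.PSU n F q))}

theorem scalar_of_comm {X : R F (V n F)} (h : ∀ Y, X * Y = Y * X) : ∃ c : F, X = c • (1 : R F (V n F)) := by
  have h1 : X ∈ Subalgebra.center F (R F (V n F)) := Subalgebra.mem_center_iff.2 fun Y => (h Y).symm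
  rw [Algebra.IsCentral.center_eq_bot, Algebra.mem_bot] at h1
  obtain ⟨c, hc⟩ := h1
  exact ⟨c, by rw [← hc, Algebra.algebraMap_eq_smul_one]⟩

include hF in
/-- **totally isotropic subspaces** -/
theorem case_TI [IsSimpleGroup (Cfsg.PSU n F q)] (hn : 3 ≤ n) (h32 : ¬ (n = 3 ∧ q = 2)) (h : IF A Γ)
    (hodd : Odd (Nat.card A)) {W : Submodule F (V n F)} (hW0 : W ≠ ⊥) (hTI : (hb n hF).TI W)
    (hW : ∀ f ∈ SS Γ, Stb f W) : False := by
  have hU := hb_isU (n := n) hF
  obtain ⟨w, hw, hw0⟩ := (Submodule.ne_bot_iff W).1 hW0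
  have hww := hTI w hw w hw
  -- a partner
  obtain ⟨v, hv⟩ : ∃ v, (hb n hF).B v w = 1 := by
    have h1 : ∃ v, (hb n hF).B v w ≠ 0 := by
      by_contra hcon
      push Not at hcon
      exact hw0 (H886.FC.nondeg_right _ hcon)
    obtain ⟨v, hv⟩ := h1
    exact ⟨((hb n hF).B v w)⁻¹ • v, by rw [(hb n hF).smul_left, inv_mul_cancel₀ hv]⟩
  have hW1 : W ≠ ⊤ := by
    intro h1
    have h2 := hTI v (by rw [h1]; exact Submodule.mem_top) w hw
    rw [hv] at h2
    exact one_ne_zero h2
  by_cases h2 : (2 : F) = 0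
  · -- a transvection
    have haa : op (hb n hF) w w * op (hb n hF) w w = 0 := by rw [op_mul, hww, zero_smul]
    have hsq : (1 + op (hb n hF) w w) * (1 + op (hb n hF) w w) = 1 := by
      have h3 : op (hb n hF) w w + op (hb n hF) w w = 0 := by
        rw [← two_smul F, h2, zero_smul]
      rw [mul_add, add_mul, add_mul, haa, mul_one, one_mul, mul_one, add_zero, add_assoc, h3, add_zero]
    obtain ⟨s, hs⟩ := exists_su hF (X := 1 + op (hb n hF) w w) (H567.FC.det_one_add haa)
      (isom_of_adj (H886.FC.adj_add _ adj_one (adj_op hU w w)) hsq)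
    have hact : ∀ x, act s x = x + (hb n hF).B x w • w := by
      intro x
      rw [← us_apply, hs]
      rfl
    refine kill_sub hF hn h32 h hodd hW hW0 hW1 (s := s) (fun x hx => ?_) (even_of_four ?_ ?_)
    · rw [hact]
      exact W.add_mem hx (W.smul_mem _ hw)
    · rw [← map_pow]
      have h1 : s ^ 4 = 1 := by
        apply us_inj
        apply Units.ext
        rw [map_pow, map_one, Units.val_pow_eq_pow_val, hs, Units.val_one]
        have e : ∀ X : R F (V n F), X ^ 4 = (X * X) * (X * X) := fun X => by noncomm_ring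
        rw [e, hsq, mul_one]
      rw [h1, map_one]
    · intro h1
      have h3 := cs_eq_one hF hn h1
      have h4 : cs s (op (hb n hF) w v) = op (hb n hF) w v := by rw [h3]; rfl
      rw [cs_fix_iff, hs, add_mul, mul_add, one_mul, mul_one, op_mul, op_mul, hww, hv, zero_smul, add_zero,
        one_smul] at h4
      have h5 : op (hb n hF) w w = 0 := by
        have := add_eq_left.1 h4
        exact this
      exact op_ne_zero hU hw0 hw0 h5
  · -- `-1` on a hyperbolic plane
    obtain ⟨f, hf, hff⟩ : ∃ f, (hb n hF).B f w = 1 ∧ (hb n hF).B f f = 0 := by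
      refine ⟨v + (-((hb n hF).B v v) / 2) • w, ?_, ?_⟩
      · rw [(hb n hF).add_left, (hb n hF).smul_left, hv, hww, mul_zero, add_zero]
      · have h3 : (hb n hF).B w v = 1 := by rw [hU.2, hv, map_one]
        have h4 : (hb n hF).τ ((hb n hF).B v v) = (hb n hF).B v v := (hU.2 v v).symm
        rw [(hb n hF).add_left, (hb n hF).add_right, (hb n hF).add_right, (hb n hF).smul_left, (hb n hF).smul_left,
          (hb n hF).smul_right, (hb n hF).smul_right, hww, hv, h3, map_div₀, map_neg, h4, map_ofNat]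
        field_simp
        ring
    have hwf : (hb n hF).B w f = 1 := by rw [hU.2, hf, map_one]
    have hp : Pi (op (hb n hF) f f) (op (hb n hF) w w) := by
      refine ⟨?_, ?_, ?_, ?_⟩
      · rw [op_mul, hff, zero_smul]
      · rw [op_mul, hww, zero_smul]
      · rw [op_mul, hwf, one_smul, op_mul, hf, one_smul]
      · rw [op_mul, hf, one_smul, op_mul, hwf, one_smul]
    have hsq : sw (op (hb n hF) f f) (op (hb n hF) w w) * sw (op (hb n hF) f f) (op (hb n hF) w w) =
        1 - 2 * (op (hb n hF) f w + op (hb n hF) w f) := by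
      rw [hp.sw_sq, op_mul, op_mul, hf, hwf, one_smul, one_smul]
    obtain ⟨X, hX⟩ : ∃ X : R F (V n F), X = 1 - 2 * (op (hb n hF) f w + op (hb n hF) w f) := ⟨_, rfl⟩
    have hXX : X * X = 1 := by
      have h4 := hp.sw_four
      rw [hsq, ← hX] at h4
      exact h4
    have hadj : (hb n hF).Adj X X := by
      have h3 := H886.FC.adj_add _ (adj_op hU f w) (adj_op hU w f)
      rw [add_comm (op (hb n hF) w f)] at h3
      have h4 := H886.FC.adj_add _ h3 h3
      rw [← two_mul] at h4
      rw [hX]
      exact adj_sub adj_one h4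
    obtain ⟨s, hs⟩ := exists_su hF (X := X) (by rw [hX, ← hsq, map_mul, det_sw hp, one_mul])
      (isom_of_adj hadj hXX)
    have hact : ∀ x, act s x = x - (2 : F) • ((hb n hF).B x f • w + (hb n hF).B x w • f) := by
      intro x
      rw [← us_apply, hs, hX, two_mul, two_smul]
      rfl
    refine kill_sub hF hn h32 h hodd hW hW0 hW1 (s := s) (fun x hx => ?_) (even_of_four ?_ ?_)
    · rw [hact, hTI x hx w hw, zero_smul, add_zero]
      exact W.sub_mem hx (W.smul_mem _ (W.smul_mem _ hw))
    · rw [← map_pow]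
      have h1 : s ^ 4 = 1 := by
        apply us_inj
        apply Units.ext
        rw [map_pow, map_one, Units.val_pow_eq_pow_val, hs, Units.val_one]
        have e : ∀ X : R F (V n F), X ^ 4 = (X * X) * (X * X) := fun X => by noncomm_ring
        rw [e, hXX, mul_one]
      rw [h1, map_one]
    · intro h1
      obtain ⟨u, hu0, huw, huf⟩ := exists_ne_zero_orth (q := q) hn w f
      have h3 := cs_eq_one hF hn h1
      have h4 : cs s (op (hb n hF) f u) = op (hb n hF) f u := by rw [h3]; rfl
      rw [cs_fix_iff, hs] at h4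
      have h5 := LinearMap.congr_fun h4 w
      rw [Module.End.mul_apply, Module.End.mul_apply, op_apply, hwf, one_smul, ← hs, us_apply, us_apply, hact, hact] at h5
      have huw' : (hb n hF).B u w = 0 := huw
      have huf' : (hb n hF).B u f = 0 := huf
      rw [huw', huf', hwf, hww, zero_smul, zero_smul, add_zero, smul_zero, sub_zero, add_zero, one_smul,
        op_apply, show (hb n hF).B (w - (2 : F) • w) f = -1 from ?_] at h5
      · rw [neg_one_smul, eq_neg_iff_add_eq_zero, ← two_smul F, smul_eq_zero] at h5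
        rcases h5 with h5 | h5
        · exact h2 h5
        · exact hu0 h5
      · have e : w - (2 : F) • w = (-1 : F) • w := by rw [two_smul, neg_one_smul]; abel
        rw [e, (hb n hF).smul_left, hwf, mul_one]

include hF in
/-- **non-degenerate subspaces** -/
theorem case_ND [IsSimpleGroup (Cfsg.PSU n F q)] (hn : 3 ≤ n) (h32 : ¬ (n = 3 ∧ q = 2)) (h : IF A Γ)
    (hodd : Odd (Nat.card A)) {W : Submodule F (V n F)} (hW0 : W ≠ ⊥) (hW1 : W ≠ ⊤) (hND : (hb n hF).ND W)
    (hW : ∀ f ∈ SS Γ, Stb f W) : False := by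
  have hU := hb_isU (n := n) hF
  have key : ∀ x y : V n F, (hb n hF).B x x = 1 → (hb n hF).B y y = 1 → (hb n hF).B y x = 0 →
      ((x ∈ W ∧ y ∈ W) ∨ ∀ w ∈ W, (hb n hF).B w x = 0 ∧ (hb n hF).B w y = 0) → False := by
    intro x y hx hy hxy hor
    have hp := op_pi hx hy hxy
    have hpi := pi_of_adj (adj_op hU x y) hp.1 hp.2
    obtain ⟨s, hs, hev⟩ := exists_sw hF hn (adj_op hU x y) hpi (op_ne_zero hU (ne_zero_of_one hx) (ne_zero_of_one hy))
    refine kill_sub hF hn h32 h hodd hW hW0 hW1 (s := s) (fun w hw => ?_) hev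
    rw [← us_apply, hs, sw, op_mul, op_mul, hx, hy, one_smul, one_smul]
    change w + (hb n hF).B w x • y - (hb n hF).B w y • x - (hb n hF).B w x • x - (hb n hF).B w y • y ∈ W
    rcases hor with ⟨h1, h2⟩ | h1
    · exact W.sub_mem (W.sub_mem (W.sub_mem (W.add_mem hw (W.smul_mem _ h2)) (W.smul_mem _ h1)) (W.smul_mem _ h1))
        (W.smul_mem _ h2)
    · obtain ⟨h1, h2⟩ := h1 w hw
      rw [h1, h2, zero_smul, zero_smul, add_zero, sub_zero, sub_zero, sub_zero]
      exact hw
  have hfr : Module.finrank F (V n F) = n := by simp [V]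
  by_cases h2 : 2 ≤ Module.finrank F W
  · obtain ⟨x, hx, y, hy, h1, h3, h4⟩ := exists_pair hU hND h2
    exact key x y h1 h3 h4 (Or.inl ⟨hx, hy⟩)
  · have h1 : Module.finrank F W = 1 := by
      have h3 : Module.finrank F W ≠ 0 := by
        intro h3
        exact hW0 (Submodule.finrank_eq_zero.1 h3)
      omega
    obtain ⟨⟨u, hu⟩, hu0, hspan⟩ := finrank_eq_one_iff'.1 h1
    have hu0' : u ≠ 0 := fun h => hu0 (Subtype.ext h)
    have hW' : ∀ w ∈ W, ∃ c : F, c • u = w := by
      intro w hw
      obtain ⟨c, hc⟩ := hspan ⟨w, hw⟩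
      exact ⟨c, congrArg Subtype.val hc⟩
    have huu : (hb n hF).B u u ≠ 0 := by
      intro h3
      apply hu0'
      apply hND u hu
      intro w hw
      obtain ⟨c, rfl⟩ := hW' w hw
      rw [(hb n hF).smul_right, h3, mul_zero]
    let φ : V n F →ₗ[F] F :=
      { toFun := fun x => (hb n hF).B x u
        map_add' := fun x y => (hb n hF).add_left _ _ _
        map_smul' := fun a x => (hb n hF).smul_left _ _ _ }
    have hφ : ∀ x, x ∈ LinearMap.ker φ ↔ (hb n hF).B x u = 0 := fun x => LinearMap.mem_ker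
    have hND' : (hb n hF).ND (LinearMap.ker φ) := by
      intro v hv hvw
      apply (hb n hF).nondeg
      intro w
      have h3 : w - ((hb n hF).B w u / (hb n hF).B u u) • u ∈ LinearMap.ker φ := by
        rw [hφ, sub_eq_add_neg, ← neg_smul, (hb n hF).add_left, (hb n hF).smul_left]
        field_simp
        ring
      have h4 := hvw _ h3
      rw [sub_eq_add_neg, ← neg_smul, (hb n hF).add_right, (hb n hF).smul_right, (hφ v).1 hv, mul_zero, add_zero] at h4
      exact h4
    have hr : 2 ≤ Module.finrank F (LinearMap.ker φ) := by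
      have h3 := LinearMap.finrank_range_add_finrank_ker φ
      have h4 : Module.finrank F (LinearMap.range φ) ≤ 1 := by
        have := Submodule.finrank_le (LinearMap.range φ)
        rwa [Module.finrank_self] at this
      rw [hfr] at h3
      omega
    obtain ⟨x, hx, y, hy, h3, h4, h5⟩ := exists_pair hU hND' hr
    refine key x y h3 h4 h5 (Or.inr fun w hw => ?_)
    obtain ⟨c, rfl⟩ := hW' w hw
    rw [(hb n hF).smul_left, (hb n hF).smul_left, hU.2 x u, hU.2 y u, (hφ x).1 hx, (hφ y).1 hy, map_zero, mul_zero]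
    exact ⟨rfl, rfl⟩

end Cfsg.Agent.H574.IFO
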