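import Cfsg.Agent.H574.IFO.CasesA
import Cfsg.Agent.H195.FC.NormU
import Cfsg.Agent.H567.FC.Main

/-!
# S5719, `PSU_n(q)`, `|A|` odd: orthogonal decompositions, fields, tensor products (helper574)
-/

set_option autoImplicit false
set_option linter.unusedSectionVars false

universe u v

namespace Cfsg.Agent.H574.IFO

open Matrix Subgroup Cfsg.Agent.H198.FC Cfsg.Agent.LieClassical.HermBasic Cfsg.Agent.LieClassical.HermSiegel
  Cfsg.Agent.ClassicalGeometry.PSUAutCount Cfsg.Agent.Schreier.PSU Cfsg.Agent.H602.FC Cfsg.Agent.H209.Fxy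
open Cfsg.Agent.ClassicalGeometry.UnitAutBasic (pr pr_surjective exists_ne_zero_orth)
open scoped Kronecker

variable {n : ℕ} {F : Type} [Field F] {q : ℕ} [Fintype F] (hF : Fintype.card F = q ^ 2)
  {A : Subgroup (Cfsg.PSU n F q)} {Γ : Subgroup (MulAut (Cfsg.PSU n F q))}

theorem adj_apply_zero {b : Cl F (V n F)} {X Y : R F (V n F)} (h : b.Adj X Y) (v w : V n F) : b.B (X v) w = b.B v (Y w) :=
  h v w

/-- an operator commuting with the projections -/
theorem op_comm_of {b : Cl F (V n F)} {e e' : R F (V n F)} (hadj : b.Adj e e') {x y : V n F} {c : F}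
    (h1 : e' x = b.τ c • x) (h2 : e y = c • y) : op b x y * e = e * op b x y := by
  apply LinearMap.ext
  intro v
  rw [Module.End.mul_apply, Module.End.mul_apply, op_apply, op_apply, hadj, h1, b.smul_right, b.invol, map_smul, h2,
    smul_smul, mul_comm]

include hF in
/-- **orthogonal decompositions** -/
theorem case_C2 [IsSimpleGroup (Cfsg.PSU n F q)] (hn : 3 ≤ n) (h32 : ¬ (n = 3 ∧ q = 2)) (h : IF A Γ)
    (hodd : Odd (Nat.card A)) {k d : ℕ} {e : Fin k → R F (V n F)} (hk : 2 ≤ k) (hd : 1 ≤ d)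
    (he : CompleteOrthogonalIdempotents e) (hadj : ∀ i, (hb n hF).Adj (e i) (e i))
    (hr : ∀ i, Module.finrank F (LinearMap.range (e i)) = d)
    (hS : ∀ f ∈ SS Γ, ∃ π : Equiv.Perm (Fin k), ∀ i, f (e i) = e (π i)) : False := by
  classical
  have hU := hb_isU (n := n) hF
  have hidem : ∀ i, e i * e i = e i := fun i => he.idem i
  have horth : ∀ i j, i ≠ j → e i * e j = 0 := fun i j hij => he.ortho hij
  have hmem : ∀ i v, v ∈ LinearMap.range (e i) → e i v = v := by
    rintro i _ ⟨w, rfl⟩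
    rw [← Module.End.mul_apply, hidem]
  have hmem' : ∀ i j v, i ≠ j → v ∈ LinearMap.range (e j) → e i v = 0 := by
    rintro i j _ hij ⟨w, rfl⟩
    rw [← Module.End.mul_apply, horth i j hij, LinearMap.zero_apply]
  have hND : ∀ i, (hb n hF).ND (LinearMap.range (e i)) := by
    intro i v hv hvw
    apply (hb n hF).nondeg
    intro w
    rw [← hmem i v hv, hadj]
    exact hvw _ ⟨w, rfl⟩
  have hD : ∀ f ∈ SS Γ, ∀ x ∈ Set.range e, f x ∈ Set.range e := by
    rintro f hf _ ⟨i, rfl⟩
    obtain ⟨π, hπ⟩ := hS f hf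
    exact ⟨π i, (hπ i).symm⟩
  -- vectors in the blocks
  have hne : ∀ i, ∃ v, v ∈ LinearMap.range (e i) ∧ v ≠ 0 := by
    intro i
    have h1 : LinearMap.range (e i) ≠ ⊥ := by
      intro h2
      have h3 := hr i
      rw [h2, finrank_bot] at h3
      omega
    obtain ⟨v, hv, hv0⟩ := (Submodule.ne_bot_iff _).1 h1
    exact ⟨v, hv, hv0⟩
  have h01 : (⟨0, by omega⟩ : Fin k) ≠ ⟨1, by omega⟩ := fun h => by
    have := congrArg Fin.val h
    simp at this
  -- non-central
  have hnc : ∃ y, e ⟨0, by omega⟩ * y ≠ y * e ⟨0, by omega⟩ := by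
    obtain ⟨v, hv, hv0⟩ := hne ⟨0, by omega⟩
    obtain ⟨u, hu, hu0⟩ := hne ⟨1, by omega⟩
    obtain ⟨w, hw⟩ : ∃ w, (hb n hF).B v w ≠ 0 := by
      by_contra hcon
      push Not at hcon
      exact hv0 ((hb n hF).nondeg v hcon)
    refine ⟨op (hb n hF) w u, fun h1 => ?_⟩
    have h2 := LinearMap.congr_fun h1 v
    rw [Module.End.mul_apply, Module.End.mul_apply, hmem _ v hv, op_apply, map_smul, hmem' _ _ u h01 hu, smul_zero] at h2
    exact (smul_ne_zero hw hu0) h2.symm
  obtain ⟨y, hy⟩ := hnc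
  rcases Nat.lt_or_ge 1 d with hd2 | hd1
  · obtain ⟨x, hx, y', hy', h1, h2, h3⟩ := exists_pair hU (hND ⟨0, by omega⟩) (by rw [hr]; omega)
    have hp := op_pi h1 h2 h3
    have hcomm : ∀ x y : V n F, x ∈ LinearMap.range (e ⟨0, by omega⟩) → y ∈ LinearMap.range (e ⟨0, by omega⟩) →
        ∀ z ∈ Set.range e, op (hb n hF) x y * z = z * op (hb n hF) x y := by
      rintro x y hx hy _ ⟨i, rfl⟩
      by_cases hi : i = ⟨0, by omega⟩
      · subst hi
        exact op_comm_of (hadj _) (c := 1) (by rw [hmem _ x hx, map_one, one_smul]) (by rw [hmem _ y hy, one_smul])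
      · exact op_comm_of (hadj _) (c := 0) (by rw [hmem' _ _ x hi hx, map_zero, zero_smul])
          (by rw [hmem' _ _ y hi hy, zero_smul])
    exact kill_comm hF hn h32 h hodd hD ⟨_, rfl⟩ hy (adj_op hU x y') hp.1 hp.2
      (op_ne_zero hU (ne_zero_of_one h1) (ne_zero_of_one h2)) (hcomm x y' hx hy') (hcomm y' x hy' hx)
  · obtain rfl : d = 1 := by omega
    -- three blocks
    have hk3 : 3 ≤ k := by
      by_contra hcon
      obtain rfl : k = 2 := by omega
      have h1 : Module.finrank F (V n F) = n := by simp [V]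
      have h2 : (⊤ : Submodule F (V n F)) ≤ LinearMap.range (e 0) ⊔ LinearMap.range (e 1) := by
        intro v _
        have h3 : v = e 0 v + e 1 v := by
          have := LinearMap.congr_fun he.complete v
          rw [Fin.sum_univ_two] at this
          exact this.symm
        rw [h3]
        exact Submodule.add_mem_sup ⟨v, rfl⟩ ⟨v, rfl⟩
      have h3 := Submodule.finrank_add_le_finrank_add_finrank (LinearMap.range (e 0)) (LinearMap.range (e 1))
      rw [top_le_iff.1 h2, finrank_top, h1, hr, hr] at h3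
      omega
    -- orthonormal vectors of the blocks
    have hon : ∀ i, ∃ w, w ∈ LinearMap.range (e i) ∧ (hb n hF).B w w = 1 := by
      intro i
      obtain ⟨⟨v, hv⟩, hv0, hspan⟩ := finrank_eq_one_iff'.1 (hr i)
      have hvv : (hb n hF).B v v ≠ 0 := by
        intro h1
        apply hv0
        apply Subtype.ext
        apply hND i v hv
        intro w hw
        obtain ⟨c, hc⟩ := hspan ⟨w, hw⟩
        have hc' : c • v = w := congrArg Subtype.val hc
        rw [← hc', (hb n hF).smul_right, h1, mul_zero]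
      obtain ⟨a, ha⟩ := exists_norm_eq hF (c := ((hb n hF).B v v)⁻¹) (by
        rw [inv_pow]
        congr 1
        exact (hU.2 v v).symm)
      refine ⟨a • v, Submodule.smul_mem _ _ hv, ?_⟩
      have h2 : (hb n hF).τ a = a ^ q := rfl
      rw [(hb n hF).smul_left, (hb n hF).smul_right, h2, ← mul_assoc, ha, inv_mul_cancel₀ hvv]
    choose w hw hww using hon
    have hwo : ∀ i j, i ≠ j → (hb n hF).B (w i) (w j) = 0 := by
      intro i j hij
      rw [← hmem i (w i) (hw i), hadj, hmem' i j _ hij (hw j), H886.FC.B_zero_right]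
    have hew : ∀ i v, e i v = (hb n hF).B v (w i) • w i := by
      intro i v
      have hw0 : w i ≠ 0 := ne_zero_of_one (hww i)
      have h1 : Module.finrank F (LinearMap.range (e i)) = 1 := hr i
      have h2 := (finrank_eq_one_iff_of_nonzero' (⟨w i, hw i⟩ : LinearMap.range (e i))
        (fun h => hw0 (congrArg Subtype.val h))).1 h1 ⟨e i v, ⟨v, rfl⟩⟩
      obtain ⟨c, hc⟩ := h2
      have hc' : c • w i = e i v := congrArg Subtype.val hc
      have h3 : (hb n hF).B (e i v) (w i) = c := by rw [← hc', (hb n hF).smul_left, hww, mul_one]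
      rw [hadj, hmem i _ (hw i)] at h3
      rw [h3, hc']
    have heo : ∀ i, e i = op (hb n hF) (w i) (w i) := fun i => LinearMap.ext fun v => hew i v
    obtain ⟨i0, hi0⟩ : ∃ i0 : Fin k, i0 = ⟨0, by omega⟩ := ⟨_, rfl⟩
    obtain ⟨i1, hi1⟩ : ∃ i1 : Fin k, i1 = ⟨1, by omega⟩ := ⟨_, rfl⟩
    obtain ⟨i2, hi2⟩ : ∃ i2 : Fin k, i2 = ⟨2, by omega⟩ := ⟨_, rfl⟩
    have n01 : i0 ≠ i1 := by rw [hi0, hi1]; exact h01
    have n02 : i0 ≠ i2 := by
      rw [hi0, hi2]
      intro h; have := congrArg Fin.val h; simp at this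
    have n12 : i1 ≠ i2 := by
      rw [hi1, hi2]
      intro h; have := congrArg Fin.val h; simp at this
    -- the swap
    obtain ⟨c, -, hc1, -, -, hcn, -⟩ := exists_mu hF
    have hc0 : c ≠ 0 := by
      rintro rfl
      rw [zero_mul] at hcn
      exact zero_ne_one hcn
    have hτ : (hb n hF).τ c = c⁻¹ := eq_inv_of_mul_eq_one_right hcn
    have hpa : ∀ c : F, c ≠ 0 → (hb n hF).τ c = c⁻¹ → (hb n hF).Adj (op (hb n hF) (w i0) (c • w i1))
        (op (hb n hF) (c • w i1) (w i0)) ∧ Pi (op (hb n hF) (w i0) (c • w i1)) (op (hb n hF) (c • w i1) (w i0)) ∧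
        op (hb n hF) (w i0) (c • w i1) ≠ 0 := by
      intro c hc0 hτ
      have h1 : (hb n hF).B (c • w i1) (c • w i1) = 1 := by
        rw [(hb n hF).smul_left, (hb n hF).smul_right, hτ, hww, mul_one, mul_inv_cancel₀ hc0]
      have h2 : (hb n hF).B (c • w i1) (w i0) = 0 := by
        rw [(hb n hF).smul_left, hwo _ _ n01.symm, mul_zero]
      have hp := op_pi (hww i0) h1 h2
      exact ⟨adj_op hU _ _, pi_of_adj (adj_op hU _ _) hp.1 hp.2,
        op_ne_zero hU (ne_zero_of_one (hww i0)) (ne_zero_of_one h1)⟩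
    obtain ⟨a1, a2, a3⟩ := hpa 1 one_ne_zero (by rw [map_one, inv_one])
    obtain ⟨b1, b2, b3⟩ := hpa c hc0 hτ
    obtain ⟨s, hs, hev⟩ := exists_sw hF hn a1 a2 a3
    obtain ⟨t, ht, -⟩ := exists_sw hF hn b1 b2 b3
    have hval : ∀ (s : Cfsg.SU n F q) (c : F), c ≠ 0 → (hb n hF).τ c = c⁻¹ →
        ((us s : (R F (V n F))ˣ) : R F (V n F)) = sw (op (hb n hF) (w i0) (c • w i1)) (op (hb n hF) (c • w i1) (w i0)) →
        act s (w i0) = c • w i1 ∧ act s (w i1) = - (c⁻¹ • w i0) ∧ ∀ j, j ≠ i0 → j ≠ i1 → act s (w j) = w j := by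
      intro s c hc0 hτ hs
      have hact : ∀ v, act s v = v + (hb n hF).B v (w i0) • c • w i1 - (hb n hF).B v (c • w i1) • w i0 -
          (hb n hF).B v (w i0) • w i0 - (hb n hF).B v (w i1) • w i1 := by
        intro v
        rw [← us_apply, hs, sw, op_mul, op_mul, hww i0, one_smul]
        have h1 : (hb n hF).B (c • w i1) (c • w i1) = 1 := by
          rw [(hb n hF).smul_left, (hb n hF).smul_right, hτ, hww, mul_one, mul_inv_cancel₀ hc0]
        rw [h1, one_smul]
        change v + (hb n hF).B v (w i0) • c • w i1 - (hb n hF).B v (c • w i1) • w i0 -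
          (hb n hF).B v (w i0) • w i0 - (hb n hF).B v (c • w i1) • (c • w i1) = _
        rw [(hb n hF).smul_right, hτ, smul_smul (c⁻¹ * _) c (w i1)]
        congr 2
        rw [mul_comm c⁻¹, mul_assoc, inv_mul_cancel₀ hc0, mul_one]
      refine ⟨?_, ?_, ?_⟩
      · rw [hact, (hb n hF).smul_right, hww, hwo _ _ n01, mul_zero, zero_smul, zero_smul, one_smul, one_smul]
        abel
      · rw [hact, (hb n hF).smul_right, hww, hwo _ _ n01.symm, mul_one, zero_smul, zero_smul, one_smul, hτ]
        abel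
      · intro j h1 h2
        rw [hact, (hb n hF).smul_right, hwo _ _ h1, hwo _ _ h2, mul_zero, zero_smul, zero_smul, zero_smul, add_zero,
          sub_zero, sub_zero, sub_zero]
    obtain ⟨s1, s2, s3⟩ := hval s 1 one_ne_zero (by rw [map_one, inv_one]) hs
    obtain ⟨t1, t2, t3⟩ := hval t c hc0 hτ ht
    have hst : ∀ (t : Cfsg.SU n F q) (X : R F (V n F)) (v : V n F), cs t X (act t v) = act t (X v) := by
      intro t X v
      rw [cs_apply]
      change act t (X ((((us t)⁻¹ : (R F (V n F))ˣ) : R F (V n F)) (((us t : (R F (V n F))ˣ) : R F (V n F)) v))) = _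
      have e : ((((us t)⁻¹ : (R F (V n F))ˣ) : R F (V n F)) (((us t : (R F (V n F))ˣ) : R F (V n F)) v)) = v := by
        rw [← Module.End.mul_apply, Units.inv_mul, Module.End.one_apply]
      rw [e]
    -- action on the projections
    have hproj : ∀ (g : Cfsg.SU n F q) (i j : Fin k) (a : F), a ≠ 0 → act g (w i) = a • w j → cs g (e i) = e j := by
      intro g i j a ha hg
      apply LinearMap.ext
      intro v
      obtain ⟨u, rfl⟩ : ∃ u, act g u = v := ⟨act g⁻¹ v, act_act_inv g v⟩
      rw [hst, heo, heo, op_apply, op_apply, act_smul, hg]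
      have h1 : (hb n hF).B (act g u) (act g (w i)) = (hb n hF).B u (w i) := herm_act g u (w i)
      have h2 : a * (hb n hF).τ a = 1 := by
        have h3 : (hb n hF).B (act g (w i)) (act g (w i)) = (hb n hF).B (w i) (w i) := herm_act g (w i) (w i)
        rw [hg, (hb n hF).smul_left, (hb n hF).smul_right, hww, hww, mul_one] at h3
        exact h3
      rw [← h1, hg, (hb n hF).smul_right, smul_smul]
      congr 1
      rw [mul_comm ((hb n hF).τ a) _, mul_assoc, mul_comm ((hb n hF).τ a) a, h2, mul_one]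
    refine kill_set hF hn h32 h hodd hD ⟨_, rfl⟩ hy (s := s) (s0 := s⁻¹ * t) ?_ hev ?_ ?_
    · rintro _ ⟨i, rfl⟩
      by_cases h0 : i = i0
      · subst h0
        exact ⟨i1, (hproj s _ _ 1 one_ne_zero s1).symm⟩
      · by_cases h1 : i = i1
        · subst h1
          exact ⟨i0, (hproj s _ _ (-(1 : F)⁻¹) (by simp) (by rw [s2, neg_smul])).symm⟩
        · exact ⟨i, (hproj s _ _ 1 one_ne_zero (by rw [s3 i h0 h1, one_smul])).symm⟩
    · have hsi : ∀ v v' , act s v = v' → act s⁻¹ v' = v := by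
        rintro v _ rfl
        exact act_inv_act s v
      rintro _ ⟨i, rfl⟩
      by_cases h0 : i = i0
      · subst h0
        refine hproj _ _ _ c hc0 ?_
        rw [act_mul, t1, act_smul, hsi (w i) (w i1) (by rw [s1, one_smul])]
      · by_cases h1 : i = i1
        · subst h1
          refine hproj _ _ _ c⁻¹ (inv_ne_zero hc0) ?_
          rw [act_mul, t2, ← smul_neg, act_smul, hsi (w i) (-w i0) (by rw [s2, inv_one, one_smul])]
        · refine hproj _ _ _ 1 one_ne_zero ?_
          rw [act_mul, t3 i h0 h1, hsi (w i) (w i) (s3 i h0 h1), one_smul]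
    · intro h1
      have h3 := cs_eq_one hF hn h1
      have h4 : cs (s⁻¹ * t) (op (hb n hF) (w i0) (w i2)) = op (hb n hF) (w i0) (w i2) := by rw [h3]; rfl
      have h5 := LinearMap.congr_fun h4 (act (s⁻¹ * t) (w i0))
      have hsi : ∀ v v' , act s v = v' → act s⁻¹ v' = v := by
        rintro v _ rfl
        exact act_inv_act s v
      rw [hst, op_apply, hww, one_smul, act_mul, act_mul, t1, t3 i2 n02.symm n12.symm, act_smul,
        hsi (w i0) (w i1) (by rw [s1, one_smul]), hsi (w i2) (w i2) (s3 i2 n02.symm n12.symm), op_apply,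
        (hb n hF).smul_left, hww, mul_one] at h5
      have h6 : (1 - c) • w i2 = 0 := by rw [sub_smul, one_smul, ← h5, sub_self]
      rw [smul_eq_zero, sub_eq_zero] at h6
      rcases h6 with h6 | h6
      · exact hc1 h6.symm
      · exact ne_zero_of_one (hww i2) h6

end Cfsg.Agent.H574.IFO
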