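import Cfsg.Agent.H574.IFO.CasesB

/-!
# S5719, `PSU_n(q)`, `|A|` odd: dual pairs, fields, tensor products (helper574)
-/

set_option autoImplicit false
set_option linter.unusedSectionVars false
set_option linter.style.haveILetI false

universe u v

namespace Cfsg.Agent.H574.IFO

open Matrix Subgroup Cfsg.Agent.H198.FC Cfsg.Agent.LieClassical.HermBasic Cfsg.Agent.LieClassical.HermSiegel
  Cfsg.Agent.ClassicalGeometry.PSUAutCount Cfsg.Agent.Schreier.PSU Cfsg.Agent.H602.FC Cfsg.Agent.H209.Fxy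
open Cfsg.Agent.ClassicalGeometry.UnitAutBasic (pr pr_surjective exists_ne_zero_orth)
open scoped Kronecker

variable {n : ℕ} {F : Type} [Field F] {q : ℕ} [Fintype F] (hF : Fintype.card F = q ^ 2)
  {A : Subgroup (Cfsg.PSU n F q)} {Γ : Subgroup (MulAut (Cfsg.PSU n F q))}

include hF in
/-- the partial isometry for a dual pair of projections -/
theorem pair_aux {p p' : R F (V n F)} (hadj : (hb n hF).Adj p p') (hpp' : p' * p = 0) (hsum : p + p' = 1)
    {v1 v2 f1 : V n F} (h1 : p v1 = v1) (h2 : p v2 = v2) (h3 : p' f1 = f1) (h11 : (hb n hF).B v1 f1 = 1)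
    (h21 : (hb n hF).B v2 f1 = 0) (h20 : v2 ≠ 0) :
    ∃ a a' : R F (V n F), (hb n hF).Adj a a' ∧ a * a = 0 ∧ a * a' * a = a ∧ a ≠ 0 ∧ a * p = p * a ∧ a' * p = p * a' := by
  have hU := hb_isU (n := n) hF
  have hadj' := H886.FC.adj_symm _ hadj
  -- `f2`
  obtain ⟨f, hf⟩ : ∃ f, (hb n hF).B v2 f ≠ 0 := by
    by_contra hcon
    push Not at hcon
    exact h20 ((hb n hF).nondeg v2 hcon)
  obtain ⟨g, hg, hg1⟩ : ∃ g, p' g = g ∧ (hb n hF).B v2 g = 1 := by
    have e1 : p' * p' = p' := by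
      have : p' * (p + p') = p' := by rw [hsum, mul_one]
      rwa [mul_add, hpp', zero_add] at this
    refine ⟨(hb n hF).τ (((hb n hF).B v2 f)⁻¹) • p' f, ?_, ?_⟩
    · rw [map_smul, ← Module.End.mul_apply, e1]
    · rw [(hb n hF).smul_right, (hb n hF).invol, ← hadj, h2, inv_mul_cancel₀ hf]
  obtain ⟨f2, hf2, hf21, hf22⟩ : ∃ f2, p' f2 = f2 ∧ (hb n hF).B v2 f2 = 1 ∧ (hb n hF).B v1 f2 = 0 := by
    refine ⟨g - (hb n hF).τ ((hb n hF).B v1 g) • f1, ?_, ?_, ?_⟩
    · rw [map_sub, hg, map_smul, h3]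
    · rw [H886.FC.B_sub_right, hg1, (hb n hF).smul_right, h21, mul_zero, sub_zero]
    · rw [H886.FC.B_sub_right, (hb n hF).smul_right, (hb n hF).invol, h11, mul_one, sub_self]
  -- isotropy
  have hpf : ∀ f, p' f = f → p f = 0 := by
    intro f hf
    have e1 : p f + p' f = f := by
      have := LinearMap.congr_fun hsum f
      exact this
    rw [hf] at e1
    exact add_eq_right.1 e1
  have hpv : ∀ v, p v = v → p' v = 0 := by
    intro v hv
    have e1 : p v + p' v = v := by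
      have := LinearMap.congr_fun hsum v
      exact this
    rw [hv] at e1
    exact add_eq_left.1 e1
  have hff : ∀ f f', p' f = f → p' f' = f' → (hb n hF).B f f' = 0 := by
    intro f f' hf hf'
    rw [← hf, hadj', hpf f' hf', H886.FC.B_zero_right]
  have hvv : ∀ f f', p f = f → p f' = f' → (hb n hF).B f f' = 0 := by
    intro f f' hf hf'
    rw [← hf, hadj, hpv f' hf', H886.FC.B_zero_right]
  have hfv11 : (hb n hF).B f1 v1 = 1 := by rw [hU.2, h11, map_one]
  have hfv12 : (hb n hF).B f1 v2 = 0 := by rw [hU.2, h21, map_zero]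
  have hfv22 : (hb n hF).B f2 v2 = 1 := by rw [hU.2, hf21, map_one]
  have hfv21 : (hb n hF).B f2 v1 = 0 := by rw [hU.2, hf22, map_zero]
  refine ⟨op (hb n hF) f1 v2 + op (hb n hF) v1 f2, op (hb n hF) v2 f1 + op (hb n hF) f2 v1,
    H886.FC.adj_add _ (adj_op hU _ _) (adj_op hU _ _), ?_, ?_, ?_, ?_, ?_⟩
  · rw [mul_add, add_mul, add_mul, op_mul, op_mul, op_mul, op_mul, h21, hvv v2 v1 h2 h1, hff f2 f1 hf2 h3, hfv21,
      zero_smul, zero_smul, zero_smul, zero_smul, add_zero, add_zero]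
  · have e1 : (op (hb n hF) f1 v2 + op (hb n hF) v1 f2) * (op (hb n hF) v2 f1 + op (hb n hF) f2 v1) =
        op (hb n hF) f2 v2 + op (hb n hF) v2 f2 := by
      rw [mul_add, add_mul, add_mul, op_mul, op_mul, op_mul, op_mul, hff f1 f1 h3 h3, hfv11, h11, hvv v1 v1 h1 h1,
        zero_smul, zero_smul, one_smul, one_smul, zero_add, add_zero, add_comm]
    rw [e1, mul_add, add_mul, add_mul, op_mul, op_mul, op_mul, op_mul, hf21, hff f2 f2 hf2 hf2, hvv v2 v2 h2 h2, hfv22,
        zero_smul, zero_smul, one_smul, one_smul, zero_add, add_zero]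
  · intro h4
    have h5 := LinearMap.congr_fun h4 v1
    rw [LinearMap.add_apply, op_apply, op_apply, h11, hvv v1 v1 h1 h1, one_smul, zero_smul, add_zero] at h5
    exact h20 h5
  · rw [add_mul, mul_add, op_comm_of hadj (c := 1) (by rw [h3, map_one, one_smul]) (by rw [h2, one_smul]),
      op_comm_of hadj (c := 0) (by rw [hpv v1 h1, map_zero, zero_smul]) (by rw [hpf f2 hf2, zero_smul])]
  · rw [add_mul, mul_add, op_comm_of hadj (c := 0) (by rw [hpv v2 h2, map_zero, zero_smul]) (by rw [hpf f1 h3, zero_smul]),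
      op_comm_of hadj (c := 1) (by rw [hf2, map_one, one_smul]) (by rw [h1, one_smul])]

include hF in
/-- **dual pairs of totally isotropic subspaces** -/
theorem case_C2' [IsSimpleGroup (Cfsg.PSU n F q)] (hn : 3 ≤ n) (h32 : ¬ (n = 3 ∧ q = 2)) (h : IF A Γ)
    (hodd : Odd (Nat.card A)) {e : Fin 2 → R F (V n F)} (he : CompleteOrthogonalIdempotents e)
    (hadj : (hb n hF).Adj (e 0) (e 1)) (hS : ∀ f ∈ SS Γ, ∃ π : Equiv.Perm (Fin 2), ∀ i, f (e i) = e (π i)) : False := by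
  have hU := hb_isU (n := n) hF
  have hadj' := H886.FC.adj_symm _ hadj
  have i0 : e 0 * e 0 = e 0 := he.idem 0
  have i1 : e 1 * e 1 = e 1 := he.idem 1
  have o01 : e 0 * e 1 = 0 := he.ortho (by decide)
  have o10 : e 1 * e 0 = 0 := he.ortho (by decide)
  have hsum : e 0 + e 1 = 1 := by
    have := he.complete
    rwa [Fin.sum_univ_two] at this
  have hD : ∀ f ∈ SS Γ, ∀ x ∈ Set.range e, f x ∈ Set.range e := by
    rintro f hf _ ⟨i, rfl⟩
    obtain ⟨π, hπ⟩ := hS f hf
    exact ⟨π i, (hπ i).symm⟩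
  -- `e 0 ≠ 0`
  have hne : ∃ v, e 0 v ≠ 0 := by
    by_contra hcon
    push Not at hcon
    have h0 : e 0 = 0 := LinearMap.ext hcon
    have h1 : e 1 = 0 := by
      rw [h0] at hadj
      exact H886.FC.adj_unique _ hadj adj_zero
    rw [h0, h1, add_zero] at hsum
    have h2 := LinearMap.congr_fun hsum (Pi.single ⟨0, by omega⟩ 1)
    have h3 := congrFun h2 ⟨0, by omega⟩
    simp at h3
  obtain ⟨v, hv⟩ := hne
  obtain ⟨v1, f1, hv1, hf1, h11⟩ : ∃ v1 f1, e 0 v1 = v1 ∧ e 1 f1 = f1 ∧ (hb n hF).B v1 f1 = 1 := by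
    obtain ⟨f, hf⟩ : ∃ f, (hb n hF).B (e 0 v) f ≠ 0 := by
      by_contra hcon
      push Not at hcon
      exact hv ((hb n hF).nondeg _ hcon)
    refine ⟨((hb n hF).B (e 0 v) f)⁻¹ • e 0 v, e 1 f, ?_, ?_, ?_⟩
    · rw [map_smul, ← Module.End.mul_apply, i0]
    · rw [← Module.End.mul_apply, i1]
    · rw [(hb n hF).smul_left, ← hadj, ← Module.End.mul_apply, i0, inv_mul_cancel₀ hf]
  have hnc : ∃ y, e 0 * y ≠ y * e 0 := by
    refine ⟨op (hb n hF) f1 f1, fun h1 => ?_⟩
    have h2 := LinearMap.congr_fun h1 v1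
    have h3 : e 0 f1 = 0 := by
      rw [← hf1, ← Module.End.mul_apply, o01, LinearMap.zero_apply]
    rw [Module.End.mul_apply, Module.End.mul_apply, hv1, op_apply, h11, one_smul, h3] at h2
    rw [← h2, H886.FC.B_zero_right] at h11
    exact zero_ne_one h11
  obtain ⟨y, hy⟩ := hnc
  -- the partial isometry
  obtain ⟨x, hx0, hxf, hxv⟩ := exists_ne_zero_orth (q := q) hn f1 v1
  have hxf' : (hb n hF).B x f1 = 0 := hxf
  have hxv' : (hb n hF).B x v1 = 0 := hxv
  have main : ∃ a a' : R F (V n F), (hb n hF).Adj a a' ∧ a * a = 0 ∧ a * a' * a = a ∧ a ≠ 0 ∧ a * e 0 = e 0 * a ∧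
      a' * e 0 = e 0 * a' := by
    by_cases h0 : e 0 x = 0
    · have h1 : e 1 x ≠ 0 := by
        intro h1
        apply hx0
        have := LinearMap.congr_fun hsum x
        rw [LinearMap.add_apply, h0, h1, add_zero, Module.End.one_apply] at this
        exact this.symm
      obtain ⟨a, a', b1, b2, b3, b4, b5, b6⟩ := pair_aux hF hadj' o01 (by rw [add_comm]; exact hsum) (v1 := f1)
        (v2 := e 1 x) (f1 := v1) hf1 (by rw [← Module.End.mul_apply, i1]) hv1 (by rw [hU.2, h11, map_one])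
        (by rw [hadj', hv1, hxv']) h1
      have e0 : e 0 = 1 - e 1 := by rw [← hsum]; abel
      refine ⟨a, a', b1, b2, b3, b4, ?_, ?_⟩
      · rw [e0, mul_sub, sub_mul, b5, mul_one, one_mul]
      · rw [e0, mul_sub, sub_mul, b6, mul_one, one_mul]
    · exact pair_aux hF hadj o10 hsum (v1 := v1) (v2 := e 0 x) (f1 := f1) hv1
        (by rw [← Module.End.mul_apply, i0]) hf1 h11 (by rw [hadj, hf1, hxf']) h0
  obtain ⟨a, a', b1, b2, b3, b4, b5, b6⟩ := main
  have e1 : e 1 = 1 - e 0 := by rw [← hsum]; abel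
  refine kill_comm hF hn h32 h hodd hD ⟨0, rfl⟩ hy b1 b2 b3 b4 ?_ ?_
  · rintro _ ⟨i, rfl⟩
    fin_cases i
    · exact b5
    · change a * e 1 = e 1 * a
      rw [e1, mul_sub, sub_mul, b5, mul_one, one_mul]
  · rintro _ ⟨i, rfl⟩
    fin_cases i
    · exact b6
    · change a' * e 1 = e 1 * a'
      rw [e1, mul_sub, sub_mul, b6, mul_one, one_mul]

section herm

variable {K : Type u} [Field K] {V : Type v} [AddCommGroup V] [Module K V] {b : Cl K V}
  {E : Type*} [Field E] [Algebra K E] [Module E V] [IsScalarTower K E V] (H : H567.FC.Hm b E)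

/-- `v ↦ h(v, x) y` -/
def opE (x y : V) : R K V where
  toFun v := H.h v x • y
  map_add' v w := by rw [H.add_left, add_smul]
  map_smul' a v := by
    rw [RingHom.id_apply, ← algebraMap_smul E a v, H.smul_left, mul_smul, algebraMap_smul]

theorem opE_apply (x y v : V) : opE H x y v = H.h v x • y := rfl

theorem adj_opE (x y : V) : b.Adj (opE H x y) (opE H y x) := by
  intro v w
  rw [opE_apply, opE_apply, H.tr, H.tr, H.smul_left, H.smul_right, ← H.symm]
  rw [mul_comm]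

theorem opE_mul (x y z t : V) : opE H x y * opE H z t = opE H z (H.h t x • y) := by
  apply LinearMap.ext
  intro v
  rw [Module.End.mul_apply, opE_apply, opE_apply, opE_apply, H.smul_left, mul_smul]

/-- the partial isometry over the field `E` -/
theorem exists_aE [Finite K] [Module.Finite K V] (hU : b.IsU) (E : Subalgebra K (R K V)) (hE : IsField E)
    (hadj : ∀ X ∈ E, ∃ Y ∈ E, b.Adj X Y) (h0 : 1 ≤ Module.finrank K V) (hne : Module.finrank K E ≠ Module.finrank K V) :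
    ∃ a a' : R K V, b.Adj a a' ∧ a * a = 0 ∧ a * a' * a = a ∧ a ≠ 0 ∧ (∀ z ∈ E, a * z = z * a) ∧
      ∀ z ∈ E, a' * z = z * a' := by
  letI : Field E := hE.toField
  haveI : Finite (R K V) := Module.finite_of_finite K
  haveI : Finite E := inferInstance
  have h1 : Module.finrank K E * Module.finrank E V = Module.finrank K V := Module.finrank_mul_finrank K E V
  have h2 : 2 ≤ Module.finrank E V := by
    by_contra hcon
    have h3 : Module.finrank E V = 0 ∨ Module.finrank E V = 1 := by omega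
    rcases h3 with h3 | h3
    · rw [h3, mul_zero] at h1
      omega
    · rw [h3, mul_one] at h1
      exact hne h1
  haveI : Nontrivial V := Module.nontrivial_of_finrank_pos (R := K) (by omega)
  haveI : Module.Finite E V := Module.Finite.of_restrictScalars_finite K E V
  obtain ⟨H⟩ := H567.FC.exists_Hm (E := E) hU (by
    intro a
    obtain ⟨Y, hY, hY'⟩ := hadj a a.2
    exact ⟨⟨Y, hY⟩, hY'⟩)
  obtain ⟨a₀, ha₀⟩ := hU.1
  have hJ : ∃ a, H.J a ≠ a := by
    refine ⟨algebraMap K E a₀, fun h => ha₀ ?_⟩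
    rw [H.J_alg] at h
    exact FaithfulSMul.algebraMap_injective K E h
  obtain ⟨c, hc⟩ := H.exists_orthonormal hJ
  obtain ⟨x, hx⟩ : ∃ x, x = c ⟨0, by omega⟩ := ⟨_, rfl⟩
  obtain ⟨y, hy⟩ : ∃ y, y = c ⟨1, by omega⟩ := ⟨_, rfl⟩
  have hxx : H.h x x = 1 := by rw [hx, hc, if_pos rfl]
  have hyy : H.h y y = 1 := by rw [hy, hc, if_pos rfl]
  have hyx : H.h y x = 0 := by
    rw [hx, hy, hc, if_neg]
    intro h
    have := congrArg Fin.val h
    simp at this
  have hy0 : y ≠ 0 := by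
    rintro rfl
    rw [H.zero_left] at hyy
    exact zero_ne_one hyy
  have hsm : ∀ (z : E) (v : V), z • v = (z : R K V) v := fun z v => rfl
  have hcomm : ∀ x y : V, ∀ z ∈ E, opE H x y * z = z * opE H x y := by
    intro x y z hz
    apply LinearMap.ext
    intro v
    have h4 : H.h (z v) x = (⟨z, hz⟩ : E) * H.h v x := by
      rw [← H.smul_left, hsm]
    rw [Module.End.mul_apply, Module.End.mul_apply, opE_apply, opE_apply, h4, mul_smul, hsm]
  refine ⟨opE H x y, opE H y x, adj_opE H x y, ?_, ?_, ?_, hcomm x y, hcomm y x⟩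
  · apply LinearMap.ext
    intro v
    rw [opE_mul, hyx, zero_smul, opE_apply, smul_zero, LinearMap.zero_apply]
  · rw [opE_mul, hxx, one_smul, opE_mul, hyy, one_smul]
  · intro h3
    have h4 := LinearMap.congr_fun h3 x
    rw [opE_apply, hxx, one_smul, LinearMap.zero_apply] at h4
    exact hy0 h4

end herm

include hF in
/-- **fields, `dim_E V ≥ 2`** -/
theorem case_C3 [IsSimpleGroup (Cfsg.PSU n F q)] (hn : 3 ≤ n) (h32 : ¬ (n = 3 ∧ q = 2)) (h : IF A Γ)
    (hodd : Odd (Nat.card A)) (E : Subalgebra F (R F (V n F))) (hE : IsField E) (hp : (Module.finrank F E).Prime)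
    (hadj : ∀ X ∈ E, ∃ Y ∈ E, (hb n hF).Adj X Y) (hS : ∀ f ∈ SS Γ, ∀ X ∈ E, f X ∈ E)
    (hne : Module.finrank F E ≠ n) : False := by
  have hU := hb_isU (n := n) hF
  have hfr : Module.finrank F (V n F) = n := by simp [V]
  obtain ⟨a, a', b1, b2, b3, b4, b5, b6⟩ := exists_aE hU E hE hadj (by rw [hfr]; omega) (by rw [hfr]; exact hne)
  -- non-central element
  obtain ⟨X, hX, Y, hXY⟩ : ∃ X ∈ E, ∃ Y, X * Y ≠ Y * X := by
    by_contra hcon
    push Not at hcon
    have h3 : E = ⊥ := by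
      rw [eq_bot_iff]
      intro X hX
      obtain ⟨c, hc⟩ := scalar_of_comm (hcon X hX)
      rw [hc, ← Algebra.algebraMap_eq_smul_one]
      exact Subalgebra.algebraMap_mem _ _
    have hnt : Nontrivial (V n F) := Module.nontrivial_of_finrank_pos (R := F) (by rw [hfr]; omega)
    have hnt2 : Nontrivial (R F (V n F)) := by
      refine ⟨⟨1, 0, fun h => ?_⟩⟩
      obtain ⟨v, hv⟩ := exists_ne (0 : V n F)
      exact hv (LinearMap.congr_fun h v)
    rw [h3, Subalgebra.finrank_bot] at hp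
    exact Nat.not_prime_one hp
  exact kill_comm hF hn h32 h hodd (D := (E : Set (R F (V n F)))) hS hX hXY b1 b2 b3 b4 b5 b6

include hF in
/-- **tensor products** -/
theorem case_C4 [IsSimpleGroup (Cfsg.PSU n F q)] (hn : 3 ≤ n) (h32 : ¬ (n = 3 ∧ q = 2)) (h : IF A Γ)
    (hodd : Odd (Nat.card A)) {u' y : ℕ} (Φ : Matrix (Fin u' × Fin y) (Fin u' × Fin y) F ≃ₐ[F] R F (V n F))
    (hu : 2 ≤ u') (hy : 2 ≤ y)
    (hadj : ∀ B : Matrix (Fin u') (Fin u') F, ∃ B' : Matrix (Fin u') (Fin u') F,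
      (hb n hF).Adj (Φ (B ⊗ₖ (1 : Matrix (Fin y) (Fin y) F))) (Φ (B' ⊗ₖ (1 : Matrix (Fin y) (Fin y) F))))
    (hS : ∀ f ∈ SS Γ, ∀ B : Matrix (Fin u') (Fin u') F, ∃ B' : Matrix (Fin u') (Fin u') F,
      f (Φ (B ⊗ₖ (1 : Matrix (Fin y) (Fin y) F))) = Φ (B' ⊗ₖ (1 : Matrix (Fin y) (Fin y) F))) : False := by
  have hU := hb_isU (n := n) hF
  have : Nonempty (Fin u') := ⟨⟨0, by omega⟩⟩
  have : Nonempty (Fin y) := ⟨⟨0, by omega⟩⟩
  obtain ⟨Ψ, h1, h3, hΨ⟩ := Cfsg.Agent.H195.FC.exists_nf (hb n hF) hU Φ hadj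
  obtain ⟨i, hi⟩ : ∃ i : Fin y, i = ⟨0, by omega⟩ := ⟨_, rfl⟩
  obtain ⟨j, hj⟩ : ∃ j : Fin y, j = ⟨1, by omega⟩ := ⟨_, rfl⟩
  obtain ⟨k, hk⟩ : ∃ i : Fin u', i = ⟨0, by omega⟩ := ⟨_, rfl⟩
  obtain ⟨l, hl⟩ : ∃ j : Fin u', j = ⟨1, by omega⟩ := ⟨_, rfl⟩
  have hij : i ≠ j := by
    rw [hi, hj]
    intro h; have := congrArg Fin.val h; simp at this
  have hkl : k ≠ l := by
    rw [hk, hl]
    intro h; have := congrArg Fin.val h; simp at this
  have hD : ∀ f ∈ SS Γ, ∀ x ∈ Set.range (fun B : Matrix (Fin u') (Fin u') F => Ψ (B ⊗ₖ (1 : Matrix (Fin y) (Fin y) F))),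
      f x ∈ Set.range (fun B : Matrix (Fin u') (Fin u') F => Ψ (B ⊗ₖ (1 : Matrix (Fin y) (Fin y) F))) := by
    rintro f hf _ ⟨B, rfl⟩
    obtain ⟨B1, hB1⟩ := h3 B
    obtain ⟨B2, hB2⟩ := hS f hf B1
    obtain ⟨B3, hB3⟩ := h1 B2
    refine ⟨B3, ?_⟩
    simp only []
    rw [hB1, hB2, hB3]
  have hXY : Ψ (single k l (1 : F) ⊗ₖ (1 : Matrix (Fin y) (Fin y) F)) * Ψ (single l k (1 : F) ⊗ₖ (1 : Matrix (Fin y) (Fin y) F)) ≠
      Ψ (single l k (1 : F) ⊗ₖ (1 : Matrix (Fin y) (Fin y) F)) * Ψ (single k l (1 : F) ⊗ₖ (1 : Matrix (Fin y) (Fin y) F)) := by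
    rw [← map_mul, ← map_mul, ← mul_kronecker_mul, ← mul_kronecker_mul, single_mul_single_same, single_mul_single_same,
      Matrix.mul_one, one_mul]
    intro h4
    have h5 := congrFun (congrFun (Ψ.injective h4) (k, i)) (k, i)
    rw [kroneckerMap_apply, kroneckerMap_apply, single_apply_same, single_apply, if_neg (fun h => hkl h.1.symm), one_apply_eq,
      zero_mul, mul_one] at h5
    exact one_ne_zero h5
  have hadj1 : (hb n hF).Adj (Ψ ((1 : Matrix (Fin u') (Fin u') F) ⊗ₖ single i j (1 : F)))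
      (Ψ ((1 : Matrix (Fin u') (Fin u') F) ⊗ₖ single j i (1 : F))) := by
    have h4 := hΨ ((1 : Matrix (Fin u') (Fin u') F) ⊗ₖ single i j (1 : F))
    have e : ((((1 : Matrix (Fin u') (Fin u') F) ⊗ₖ single i j (1 : F)).map (hb n hF).τ)ᵀ) =
        (1 : Matrix (Fin u') (Fin u') F) ⊗ₖ single j i (1 : F) := by
      ext ⟨a, b⟩ ⟨c, d⟩
      rw [transpose_apply, map_apply, kroneckerMap_apply, kroneckerMap_apply, map_mul, one_apply, one_apply, single_apply,
        single_apply]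
      congr 1
      · by_cases hac : c = a
        · rw [if_pos hac, if_pos hac.symm, map_one]
        · rw [if_neg hac, if_neg (Ne.symm hac), map_zero]
      · by_cases hbd : i = d ∧ j = b
        · rw [if_pos hbd, if_pos hbd.symm, map_one]
        · rw [if_neg hbd, if_neg (fun h => hbd h.symm), map_zero]
    rwa [e] at h4
  refine kill_comm hF hn h32 h hodd hD ⟨single k l (1 : F), rfl⟩ hXY hadj1 ?_ ?_ ?_ ?_ ?_
  · rw [← map_mul, ← mul_kronecker_mul, single_mul_single_of_ne _ _ _ _ hij.symm, kronecker_zero, map_zero]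
  · rw [← map_mul, ← map_mul, ← mul_kronecker_mul, ← mul_kronecker_mul, single_mul_single_same, single_mul_single_same,
      Matrix.mul_one, Matrix.mul_one, one_mul, one_mul]
  · intro h4
    have h5 : (1 : Matrix (Fin u') (Fin u') F) ⊗ₖ single i j (1 : F) = 0 := Ψ.injective (by rw [h4, map_zero])
    have h6 := congrFun (congrFun h5 (k, i)) (k, j)
    rw [kroneckerMap_apply, one_apply_eq, single_apply_same, one_mul] at h6
    exact one_ne_zero h6
  · rintro _ ⟨B, rfl⟩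
    simp only []
    rw [← map_mul, ← map_mul, ← mul_kronecker_mul, ← mul_kronecker_mul, Matrix.one_mul, Matrix.mul_one, Matrix.one_mul,
      Matrix.mul_one]
  · rintro _ ⟨B, rfl⟩
    simp only []
    rw [← map_mul, ← map_mul, ← mul_kronecker_mul, ← mul_kronecker_mul, Matrix.one_mul, Matrix.mul_one, Matrix.one_mul,
      Matrix.mul_one]

end Cfsg.Agent.H574.IFO
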