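import Cfsg.Agent.H574.IFO.CasesC
import Cfsg.Agent.H5.IFO.Num
import Cfsg.Agent.S0282
import Cfsg.Agent.H209.IF.Kill
import Cfsg.Agent.H716.IFO.SingUpU
import Cfsg.Agent.H204.IFO.C6U
import Cfsg.Agent.H62.IFO.SingLowU
import Cfsg.Agent.H14.IFO.GraphU

/-!
# S5719, `CellsPSU.oddA`: the assembly (helper574)
-/

set_option autoImplicit false
set_option linter.unusedSectionVars false

namespace Cfsg.Agent.H574.IFO

open Matrix Subgroup Cfsg.Agent.H198.FC Cfsg.Agent.LieClassical.HermBasic Cfsg.Agent.LieClassical.HermSiegel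
  Cfsg.Agent.ClassicalGeometry.PSUAutCount Cfsg.Agent.Schreier.PSU Cfsg.Agent.H602.FC Cfsg.Agent.H209.Fxy
open Cfsg.Agent.ClassicalGeometry.UnitAutBasic (pr pr_surjective exists_ne_zero_orth)

/-- **`CellsPSU.oddA`** -/
theorem psu_oddA (F : Type) [Field F] [Fintype F] (n q : ℕ) (hF : Fintype.card F = q ^ 2) (hn : 3 ≤ n)
    (hs : IsSimpleGroup (Cfsg.PSU n F q)) : KillO (Cfsg.PSU n F q) := by
  intro A Γ h hodd
  have h32 : ¬ (n = 3 ∧ q = 2) := by
    rintro ⟨rfl, rfl⟩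
    have h1 := (Cfsg.Agent.S0282.result (F := F) (by rw [hF]; norm_num)).2
    obtain ⟨x, y, hxy⟩ := not_comm h
    exact hxy (IsSimpleGroup.comm_iff_isSolvable.2 h1 x y)
  have hfin : Finite (Cfsg.SU n F q) := inferInstance
  have hfin2 : Finite (Cfsg.PSU n F q) := Finite.of_surjective _ (pr_surjective (n := n) (F := F) (q := q))
  have hΓ : Group.IsSolvable Γ := solvable (Cfsg.Agent.Schreier.PSU.sch hF hn h32) h hodd
  have hfr : Module.finrank F (V n F) = n := by simp [V]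
  have hU := hb_isU (n := n) hF
  have hbig : (hb n hF).Big := by
    refine Or.inl ⟨hU, by rw [hfr]; exact hn, fun h3 h4 => h32 ⟨by rw [← hfr]; exact h3, ?_⟩⟩
    rw [Nat.card_eq_fintype_card, hF] at h4
    have h5 : q ≤ 2 := by
      by_contra h6
      have : 3 * 3 ≤ q * q := Nat.mul_le_mul (by omega) (by omega)
      rw [sq] at h4
      omega
    interval_cases q <;> omega
  have hne : SS Γ ⊓ IN F (V n F) ≠ ⊥ := by
    obtain ⟨a, ha, ha1⟩ : ∃ a ∈ A, a ≠ 1 := by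
      by_contra hcon
      push Not at hcon
      exact h.ne_bot ((Subgroup.eq_bot_iff_forall A).2 hcon)
    obtain ⟨s, rfl⟩ := pr_surjective a
    intro h1
    have h2 : cs s ∈ SS Γ ⊓ IN F (V n F) := ⟨(cs_mem_SS h).2 ha, ⟨us s, rfl⟩⟩
    rw [h1, Subgroup.mem_bot] at h2
    have h3 := eq_of_fst (h2 ▸ pair_mem s) (one_mem (HU n F q))
    apply ha1
    apply center_bot h
    intro y
    have h4 := DFunLike.congr_fun h3 y
    rw [MulAut.conj_apply] at h4
    exact mul_inv_eq_iff_eq_mul.1 h4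
  rcases H886.FC.stmtBClass F (V n F) (hb n hF) hbig (SS Γ) (SS_le hF) (SS_solvable hF hn hΓ) hne with
    ⟨W, h1, h2, h3⟩ | ⟨-, ⟨W, h1, h2, h3, h4⟩ | ⟨k, d, e, h1, h2, h3, h4, h5, h6⟩ | ⟨e, h1, h2, h3⟩ | ⟨E, h1, h2, h3, h4⟩ |
      ⟨u', y, Φ, h1, h2, h3, h4⟩ | ⟨A0, r, a, h1⟩⟩
  · exact case_TI hF hn h32 h hodd h1 h2 h3
  · exact case_ND hF hn h32 h hodd h1 h2 h3 h4
  · exact case_C2 hF hn h32 h hodd h1 h2 h3 h4 h5 h6
  · exact case_C2' hF hn h32 h hodd h1 h2 h3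
  · by_cases hEn : Module.finrank F E = n
    · have hp : n.Prime := by rw [← hEn]; exact h2
      have hno : Odd n := hp.odd_of_ne_two (by omega)
      obtain ⟨σ, hσ, ho, -⟩ := h.ex
      obtain ⟨hcl, f, hf, hnt⟩ := H14.IFO.graph_of hF hn h32 h hodd hno hσ ho
      exact H5.IFO.num_U hF hn hno h hodd hσ ho hcl (H62.IFO.sing_low hF hn h32 h hodd E h1 hEn hp h3 h4)
        (H716.IFO.U.sing_up hF hn h hodd E h1 hEn h3 h4 hf hσ ho hnt)
    · exact case_C3 hF hn h32 h hodd E h1 h2 h3 h4 hEn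
  · exact case_C4 hF hn h32 h hodd Φ h1 h2 h3 h4
  · exact H204.IFO.case_C6 hF hn h32 h hodd h1

end Cfsg.Agent.H574.IFO
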